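/-
Jordan sets: 3-transitivity, Marggraf's theorem, quasiprimitive groups.
-/
import Cfsg.Agent.H78.PermSmall
import Cfsg.Agent.S0711
import Cfsg.Agent.S0712
import Mathlib.GroupTheory.GroupAction.SubMulAction.Combination
import Mathlib.Data.Set.Finite.Lemmas
import Mathlib.Order.Atoms.Finite
import Mathlib.Data.SetLike.Fintype

set_option autoImplicit false

namespace Cfsg.Agent.H78

open MulAction Equiv Equiv.Perm
open scoped Pointwise

/-- the pointwise stabiliser of the complement of `Γ` is transitive on `Γ` -/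
def IsJ (G : Type*) {Ω : Type*} [Group G] [MulAction G Ω] (Γ : Set Ω) : Prop :=
  ∀ x ∈ Γ, ∀ y ∈ Γ, ∃ g : G, (∀ z ∉ Γ, g • z = z) ∧ g • x = y

variable {G Ω : Type*} [Group G] [MulAction G Ω]

theorem smul_mem_of_fix {Γ : Set Ω} {g : G} (hg : ∀ z ∉ Γ, g • z = z) {x : Ω} (hx : x ∈ Γ) :
    g • x ∈ Γ := by
  by_contra h
  have : g • x = x := MulAction.injective g (hg _ h)
  exact h (this.symm ▸ hx)

theorem fix_inv {Γ : Set Ω} {g : G} (hg : ∀ z ∉ Γ, g • z = z) : ∀ z ∉ Γ, g⁻¹ • z = z :=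
  fun z hz => inv_smul_eq_iff.2 (hg z hz).symm

theorem IsJ.smul {Γ : Set Ω} (h : IsJ G Γ) (g : G) : IsJ G (g • Γ) := by
  rintro _ ⟨x, hx, rfl⟩ _ ⟨y, hy, rfl⟩
  obtain ⟨k, hk, hxy⟩ := h x hx y hy
  refine ⟨g * k * g⁻¹, fun z hz => ?_, ?_⟩
  · rw [mul_smul, mul_smul, hk _ (fun h' => hz (Set.mem_smul_set_iff_inv_smul_mem.2 h')),
      smul_inv_smul]
  · simp only [mul_smul, inv_smul_smul, hxy]

theorem IsJ.union {Γ Γ' : Set Ω} (h : IsJ G Γ) (h' : IsJ G Γ') (hne : (Γ ∩ Γ').Nonempty) :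
    IsJ G (Γ ∪ Γ') := by
  obtain ⟨c, hc, hc'⟩ := hne
  have key : ∀ x ∈ Γ ∪ Γ', ∃ g : G, (∀ z ∉ Γ ∪ Γ', g • z = z) ∧ g • x = c := by
    rintro x (hx | hx)
    · obtain ⟨g, hg, e⟩ := h x hx c hc
      exact ⟨g, fun z hz => hg z fun h => hz (Or.inl h), e⟩
    · obtain ⟨g, hg, e⟩ := h' x hx c hc'
      exact ⟨g, fun z hz => hg z fun h => hz (Or.inr h), e⟩
  intro x hx y hy
  obtain ⟨g, hg, e⟩ := key x hx
  obtain ⟨g', hg', e'⟩ := key y hy
  refine ⟨g'⁻¹ * g, fun z hz => ?_, ?_⟩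
  · rw [mul_smul, hg z hz, fix_inv hg' z hz]
  · rw [mul_smul, e, inv_smul_eq_iff, e']

theorem isJ_iff {Γ : Set Ω} : IsJ G Γ ↔
    IsPretransitive (fixingSubgroup G Γᶜ) (SubMulAction.ofFixingSubgroup G Γᶜ) := by
  constructor
  · intro h
    refine ⟨fun x y => ?_⟩
    obtain ⟨g, hg, e⟩ := h x.1 (not_not.1 x.2) y.1 (not_not.1 y.2)
    exact ⟨⟨g, (mem_fixingSubgroup_iff G).2 hg⟩, Subtype.ext e⟩
  · intro h x hx y hy
    obtain ⟨g, e⟩ := h.exists_smul_eq ⟨x, not_not.2 hx⟩ ⟨y, not_not.2 hy⟩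
    exact ⟨g.1, (mem_fixingSubgroup_iff G).1 g.2, congrArg Subtype.val e⟩

theorem ncard_smul (g : G) (Γ : Set Ω) : (g • Γ).ncard = Γ.ncard :=
  Set.ncard_image_of_injective _ (MulAction.injective g)

theorem IsJ.two_trans [Finite Ω] (hG : IsPreprimitive G Ω) {Γ : Set Ω} (h : IsJ G Γ)
    (h1 : 1 < Γ.ncard) (h2 : Γ.ncard < Nat.card Ω) : IsMultiplyPretransitive G Ω 2 := by
  have := Set.ncard_add_ncard_compl Γ
  exact hG.is_two_pretransitive (s := Γᶜ) (n := Γᶜ.ncard - 1) (by omega) (by omega) (isJ_iff.1 h)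

theorem IsJ.succ_trans [Finite Ω] {k : ℕ} (hG : IsMultiplyPretransitive G Ω k) {A : Set Ω}
    (hA : A.ncard = k) (h : IsJ G Aᶜ) : IsMultiplyPretransitive G Ω (k + 1) := by
  refine S0712.trans_add A hA hG (is_one_pretransitive_iff.2 ?_)
  have := isJ_iff.1 h
  rwa [compl_compl] at this

theorem exists_smul_set [Finite Ω] {k : ℕ} (hG : IsMultiplyPretransitive G Ω k) {s t : Set Ω}
    (hs : s.ncard = k) (ht : t.ncard = k) : ∃ g : G, g • s = t := by
  classical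
  obtain ⟨g, hg⟩ := (Set.powersetCard.isPretransitive_of_isMultiplyPretransitive G
    hG).exists_smul_eq ⟨s.toFinite.toFinset, by
      simpa [← Set.ncard_eq_toFinset_card] using hs⟩ ⟨t.toFinite.toFinset, by
      simpa [← Set.ncard_eq_toFinset_card] using ht⟩
  refine ⟨g, ?_⟩
  have := congrArg (fun x : Set.powersetCard Ω k => ((x : Finset Ω) : Set Ω)) hg
  simpa using this

theorem exists_smul_overlap [Finite Ω] (hG : IsPreprimitive G Ω) {Γ : Set Ω}
    (h1 : 1 < Γ.ncard) (h2 : Γ.ncard < Nat.card Ω) :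
    ∃ g : G, g • Γ ≠ Γ ∧ (Γ ∩ g • Γ).Nonempty := by
  by_contra hc
  push Not at hc
  have hb : IsBlock G Γ := by
    rw [isBlock_iff_smul_eq_or_disjoint]
    intro g
    by_cases e : g • Γ = Γ
    · exact Or.inl e
    · exact Or.inr (Set.disjoint_iff_inter_eq_empty.2 (by rw [Set.inter_comm]; exact hc g e))
  rcases hG.isTrivialBlock_of_isBlock hb with h | h
  · have := (Set.ncard_le_one_iff_subsingleton).2 h
    omega
  · rw [h, Set.ncard_univ] at h2
    omega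

/-- a primitive group with a Jordan set of at most half the points is triply transitive -/
theorem IsJ.three_trans [Finite Ω] (hG : IsPreprimitive G Ω) {Γ : Set Ω} (hJ : IsJ G Γ)
    (h1 : 1 < Γ.ncard) (h2 : 2 * Γ.ncard ≤ Nat.card Ω) : IsMultiplyPretransitive G Ω 3 := by
  classical
  have h2t := hJ.two_trans hG h1 (by omega)
  obtain ⟨X, ⟨hX, hXm, hXn⟩, hmax⟩ := Set.exists_max_image
    {X : Set Ω | IsJ G X ∧ 1 < X.ncard ∧ X.ncard + 2 ≤ Nat.card Ω} Set.ncard (Set.toFinite _)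
    ⟨Γ, hJ, h1, by omega⟩
  have hc := Set.ncard_add_ncard_compl X
  by_cases hl : Xᶜ.ncard = 2
  · exact IsJ.succ_trans h2t hl (by rwa [compl_compl])
  exfalso
  have grow : ∀ g : G, g • X ≠ X → (X ∩ g • X).Nonempty →
      Nat.card Ω ≤ (X ∪ g • X).ncard + 1 := by
    intro g hg hne
    by_contra hlt
    have hss : X ⊆ X ∪ g • X := Set.subset_union_left
    have hle := Set.ncard_le_ncard hss
    have := hmax (X ∪ g • X) ⟨hX.union (hX.smul g) hne, by omega, by omega⟩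
    have e := Set.eq_of_subset_of_ncard_le hss this
    exact hg (Set.eq_of_subset_of_ncard_le (by rw [e]; nth_rewrite 1 [← e]; exact Set.subset_union_right)
      (ncard_smul g X).ge)
  have hhalf : Nat.card Ω ≤ 2 * X.ncard := by
    obtain ⟨g, hg, hne⟩ := exists_smul_overlap hG hXm (by omega)
    have h3 := grow g hg hne
    have h4 := Set.ncard_union_add_ncard_inter X (g • X)
    have h5 := (Set.ncard_pos (Set.toFinite _)).2 hne
    rw [ncard_smul] at h4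
    omega
  have line1 : ∀ g : G, ∀ x y, x ≠ y → x ∉ X → y ∉ X → x ∉ g • X → y ∉ g • X → g • X = X := by
    intro g x y hxy hx hy hx' hy'
    by_contra hg
    have hsub : ({x, y} : Set Ω) ⊆ (X ∪ g • X)ᶜ := by
      rintro z (rfl | rfl) (h | h) <;> contradiction
    have h3 := Set.ncard_le_ncard hsub
    rw [Set.ncard_pair hxy] at h3
    have h4 := Set.ncard_add_ncard_compl (X ∪ g • X)
    by_cases hne : (X ∩ g • X).Nonempty
    · have := grow g hg hne
      omega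
    · have h5 := Set.ncard_union_add_ncard_inter X (g • X)
      rw [ncard_smul, Set.not_nonempty_iff_eq_empty.1 hne, Set.ncard_empty] at h5
      omega
  have line : ∀ g h : G, ∀ x y, x ≠ y → x ∉ g • X → y ∉ g • X → x ∉ h • X → y ∉ h • X →
      g • X = h • X := by
    intro g h x y hxy hx hy hx' hy'
    have e : ∀ z, z ∉ g • X → h⁻¹ • z ∉ (h⁻¹ * g) • X := fun z hz hz' => hz (by
      rwa [mul_smul, Set.smul_mem_smul_set_iff] at hz')
    have := line1 (h⁻¹ * g) (h⁻¹ • x) (h⁻¹ • y) (fun e => hxy (MulAction.injective _ e))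
      (fun e => hx' (Set.mem_smul_set_iff_inv_smul_mem.2 e))
      (fun e => hy' (Set.mem_smul_set_iff_inv_smul_mem.2 e)) (e x hx) (e y hy)
    rwa [mul_smul, inv_smul_eq_iff] at this
  have exline : ∀ x y, x ≠ y → ∃ g : G, x ∉ g • X ∧ y ∉ g • X := by
    intro x y hxy
    obtain ⟨a, b, ha, hb, hab⟩ := (Set.one_lt_ncard_iff (Set.toFinite Xᶜ)).1 (by omega)
    obtain ⟨g, rfl, rfl⟩ := is_two_pretransitive_iff.1 h2t hab hxy
    exact ⟨g, fun e => ha (Set.smul_mem_smul_set_iff.1 e),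
      fun e => hb (Set.smul_mem_smul_set_iff.1 e)⟩
  have third : ∀ (g : G) x y, ∃ w, w ∉ g • X ∧ w ≠ x ∧ w ≠ y := by
    intro g x y
    by_contra hw
    push Not at hw
    have hsub : (g • X)ᶜ ⊆ {x, y} := fun w hw' => by
      by_cases e : w = x
      · exact Or.inl e
      · exact Or.inr (hw w hw' e)
    have h3 := Set.ncard_le_ncard hsub
    have h4 := Set.ncard_add_ncard_compl (g • X)
    have h5 : ({x, y} : Set Ω).ncard ≤ 2 := by
      have := Set.ncard_insert_le x ({y} : Set Ω)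
      rwa [Set.ncard_singleton] at this
    rw [ncard_smul] at h4
    omega
  have fixl : ∀ (g : G) x y, x ≠ y → x ∉ Γ → y ∉ Γ → x ∉ g • X → y ∉ g • X →
      ∀ γ ∈ Γ, γ ∉ g • X → ∀ γ' ∈ Γ, γ' ∉ g • X := by
    intro g x y hxy hx hy hx' hy' γ hγ hγ' γ' h'
    obtain ⟨j, hj, e⟩ := hJ γ hγ γ' h'
    have e1 : ∀ z, z ∉ g • X → j • z ∉ (j * g) • X := fun z hz hz' => hz (by
      rwa [mul_smul, Set.smul_mem_smul_set_iff] at hz')
    have := line (j * g) g x y hxy (hj x hx ▸ e1 x hx') (hj y hy ▸ e1 y hy') hx' hy'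
    rw [← e, ← this]
    exact e1 γ hγ'
  obtain ⟨γ, γ', hγ, hγ', hne⟩ := (Set.one_lt_ncard_iff (Set.toFinite Γ)).1 h1
  have one : ∀ (g : G) x y, x ∉ Γ → y ∉ Γ → x ∉ g • X → y ∉ g • X → γ ∉ g • X → x = y := by
    intro g x y hx hy hx' hy' hg
    by_contra hxy
    have hall := fixl g x y hxy hx hy hx' hy' γ hγ hg
    obtain ⟨z, hz⟩ : (g • X).Nonempty := by
      rw [← Set.ncard_pos, ncard_smul]; omega
    have hzΓ : z ∉ Γ := fun e => hall z e hz
    obtain ⟨h, hγh, hzh⟩ := exline γ z (fun e => hzΓ (e ▸ hγ))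
    have hM : ∀ w ∈ Γ, w ∉ h • X → w = γ := by
      intro w hw hw'
      by_contra e
      exact hzh (line g h w γ e (hall w hw) hg hw' hγh ▸ hz)
    obtain ⟨w, hw, hw1, hw2⟩ := third h γ z
    exact hne (hM γ' hγ' (fixl h w z hw2 (fun e => hw1 (hM w e hw)) hzΓ hw hzh γ hγ hγh γ' hγ')).symm
  have ex : ∀ δ, δ ∉ Γ → ∃ (g : G) (w : Ω), γ ∉ g • X ∧ δ ∉ g • X ∧ w ∉ g • X ∧ w ≠ γ ∧ w ∈ Γ := by
    intro δ hδ
    obtain ⟨g, hg1, hg2⟩ := exline γ δ (fun e => hδ (e ▸ hγ))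
    obtain ⟨w, hw, hw1, hw2⟩ := third g γ δ
    exact ⟨g, w, hg1, hg2, hw, hw1, by_contra fun e => hw2 (one g w δ e hδ hw hg2 hg1)⟩
  choose! g f hg1 hg2 hf1 hf2 hf3 using ex
  have hinj : Γᶜ.ncard ≤ (Γ \ {γ}).ncard := by
    refine Set.ncard_le_ncard_of_injOn f (fun δ hδ => ⟨hf3 δ hδ, hf2 δ hδ⟩) ?_
    intro δ hδ δ' hδ' e
    have := line (g δ) (g δ') (f δ) γ (hf2 δ hδ) (hf1 δ hδ) (hg1 δ hδ) (e ▸ hf1 δ' hδ') (hg1 δ' hδ')
    exact one (g δ) δ δ' hδ hδ' (hg2 δ hδ) (this ▸ hg2 δ' hδ') (hg1 δ hδ)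
  have h6 := Set.ncard_sdiff_singleton_add_one hγ
  have h7 := Set.ncard_add_ncard_compl Γ
  omega

theorem IsJ.conj_fix [Finite Ω] {Γ : Set Ω} (hJ : IsJ G Γ) (n : ℕ) :
    ∀ g : G, (Γ ∪ g • Γ).ncard = n → (Γ ∩ g • Γ).Nonempty →
      ∃ h : G, (∀ z ∉ Γ ∪ g • Γ, h • z = z) ∧ h • g • Γ = Γ := by
  induction n using Nat.strong_induction_on with
  | _ n ih =>
  intro g hn hne
  by_cases e : g • Γ = Γ
  · exact ⟨1, fun z _ => one_smul _ _, by rw [one_smul, e]⟩
  obtain ⟨x, hx, hx'⟩ : ∃ x ∈ Γ, x ∉ g • Γ := by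
    by_contra hc
    push Not at hc
    exact e (Set.eq_of_subset_of_ncard_le hc (ncard_smul g Γ).le).symm
  obtain ⟨y, hy, hy'⟩ : ∃ y ∈ g • Γ, y ∉ Γ := by
    by_contra hc
    push Not at hc
    exact e (Set.eq_of_subset_of_ncard_le hc (ncard_smul g Γ).ge)
  obtain ⟨h, hh, hxy⟩ := hJ.union (hJ.smul g) hne x (Or.inl hx) y (Or.inr hy)
  have hsub : Γ ∪ (h * g) • Γ ⊆ (Γ ∪ g • Γ) \ {y} := by
    rintro z (hz | hz)
    · exact ⟨Or.inl hz, fun e => hy' (e ▸ hz)⟩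
    · rw [mul_smul] at hz
      obtain ⟨w, hw, rfl⟩ := hz
      refine ⟨smul_mem_of_fix hh (Or.inr hw), fun e => hx' ?_⟩
      have : w = x := MulAction.injective h (e.trans hxy.symm)
      exact this ▸ hw
  have h1 := Set.ncard_le_ncard hsub
  have h2 := Set.ncard_sdiff_singleton_add_one (s := Γ ∪ g • Γ) (Or.inr hy)
  have h3 := Set.ncard_union_add_ncard_inter Γ (g • Γ)
  have h4 := Set.ncard_union_add_ncard_inter Γ ((h * g) • Γ)
  have h5 := (Set.ncard_pos (Set.toFinite _)).2 hne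
  rw [ncard_smul] at h3 h4
  obtain ⟨k, hk, hkg⟩ := ih _ (by omega) (h * g) rfl
    ((Set.ncard_pos (Set.toFinite _)).1 (by omega))
  refine ⟨k * h, fun z hz => ?_, by rw [smul_smul, mul_assoc, mul_smul, hkg]⟩
  rw [mul_smul, hh z hz, hk z fun e => hz (hsub e).1]

/-- the complement of `Γ`, acted on by the stabiliser of `Γ` -/
def complAct (G : Type*) {Ω : Type*} [Group G] [MulAction G Ω] (Γ : Set Ω) :
    SubMulAction (stabilizer G Γ) Ω where
  carrier := Γᶜ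
  smul_mem' g x hx e := hx (by
    have := mem_stabilizer_iff.1 g.2
    exact (Set.smul_mem_smul_set_iff (a := g.1)).1 (this.symm ▸ e))

theorem ncard_pre {Γ D : Set Ω} (hD : ∀ x ∈ D, x ∉ Γ) :
    ((fun x : complAct G Γ => (x : Ω)) ⁻¹' D).ncard = D.ncard :=
  Set.ncard_preimage_of_injective_subset_range Subtype.val_injective
    fun x hx => ⟨⟨x, hD x hx⟩, rfl⟩

theorem IsJ.compl_two_trans [Finite Ω] {Γ : Set Ω} (hJ : IsJ G Γ) (hne : Γ.Nonempty)
    (h3 : IsMultiplyPretransitive G Ω 3) (hn : 3 ≤ Nat.card Ω) :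
    IsMultiplyPretransitive (stabilizer G Γ) (complAct G Γ) 2 := by
  classical
  have := Fintype.ofFinite Ω
  obtain ⟨γ, hγ⟩ := hne
  rw [is_two_pretransitive_iff]
  intro a b c d hab hcd
  obtain ⟨g, hg1, hg2⟩ := is_two_pretransitive_iff.1
    (isMultiplyPretransitive_of_le (G := G) (α := Ω) (by omega : 2 ≤ 3) hn)
    (fun e => hab (Subtype.ext e)) (fun e => hcd (Subtype.ext e))
  have ha : ∀ z : complAct G Γ, γ ≠ z := fun z e => z.2 (e ▸ hγ)
  obtain ⟨g', hg', hγ'⟩ := S0711.exists_fix_move (by rwa [← Nat.card_eq_fintype_card]) h3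
    {c.1, d.1} (Nat.succ_le_succ Finset.card_le_two) (y := g • γ) (z := γ)
    (by simp [← hg1, ← hg2, ha]) (by simp [ha])
  obtain ⟨h, hh, e⟩ := hJ.conj_fix _ (g' * g) rfl ⟨γ, hγ, γ, hγ, by simp [mul_smul, hγ']⟩
  have e1 : (g' * g) • a.1 = c.1 := by rw [mul_smul, hg1, hg' _ (by simp)]
  have e2 : (g' * g) • b.1 = d.1 := by rw [mul_smul, hg2, hg' _ (by simp)]
  refine ⟨⟨h * (g' * g), by rw [mem_stabilizer_iff, mul_smul, e]⟩, Subtype.ext ?_, Subtype.ext ?_⟩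
  · change (h * (g' * g)) • a.1 = c.1
    rw [mul_smul, e1, hh]
    rintro (hc | hc)
    · exact c.2 hc
    · rw [← e1, Set.smul_mem_smul_set_iff] at hc
      exact a.2 hc
  · change (h * (g' * g)) • b.1 = d.1
    rw [mul_smul, e2, hh]
    rintro (hc | hc)
    · exact d.2 hc
    · rw [← e2, Set.smul_mem_smul_set_iff] at hc
      exact b.2 hc

theorem multTrans_of_alt_le [Fintype Ω] [DecidableEq Ω]
    (h : alternatingGroup Ω ≤ (toPermHom G Ω).range) :
    IsMultiplyPretransitive G Ω (Nat.card Ω - 2) :=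
  ⟨fun x y => by
    obtain ⟨⟨σ, hσ⟩, e⟩ := (alternatingGroup.isMultiplyPretransitive Ω).exists_smul_eq x y
    obtain ⟨g, rfl⟩ := h hσ
    exact ⟨g, by rw [← e]; ext; rfl⟩⟩

universe u v in
theorem marggraf_aux (n : ℕ) : ∀ {G : Type u} {Ω : Type v} [Group G] [MulAction G Ω] [Finite Ω],
    Nat.card Ω = n → IsPreprimitive G Ω → ∀ Γ : Set Ω, IsJ G Γ → 1 < Γ.ncard → 2 * Γ.ncard < n →
    IsMultiplyPretransitive G Ω (n - 2) := by
  induction n using Nat.strong_induction_on with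
  | _ n ih =>
  intro G Ω _ _ _ hn hG Γ hJ h1 h2
  classical
  have := Fintype.ofFinite Ω
  obtain ⟨γ, γ', hγ, hγ', hγγ⟩ := (Set.one_lt_ncard_iff (Set.toFinite Γ)).1 h1
  have h2c := hJ.compl_two_trans ⟨γ, hγ⟩ (hJ.three_trans hG h1 (by omega)) (by omega)
  obtain ⟨g, ⟨hg, hne⟩, hmin⟩ := exists_minimalFor_of_wellFoundedLT
    (fun g : G => g • Γ ≠ Γ ∧ (Γ ∩ g • Γ).Nonempty) (fun g => (Γ ∪ g • Γ).ncard)
    (exists_smul_overlap hG h1 (by omega))
  have hU := hJ.union (hJ.smul g) hne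
  have c1 := Set.ncard_union_add_ncard_inter Γ (g • Γ)
  have c2 := (Set.ncard_pos (Set.toFinite _)).2 hne
  have c3 := Set.ncard_inter_add_ncard_sdiff_eq_ncard (g • Γ) Γ
  have c4 := Set.ncard_add_ncard_compl Γ
  rw [Set.inter_comm] at c3
  rw [ncard_smul] at c1 c3
  set D := g • Γ \ Γ with hD
  have blk : ∀ h : G, (∀ z ∉ Γ ∪ g • Γ, h • z = z) → ∀ x ∈ D, h • x ∈ D → h • Γ = Γ := by
    intro h hh x hx hx'
    by_contra e
    have hsub : Γ ∪ h • Γ ⊆ (Γ ∪ g • Γ) \ {h • x} := by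
      rintro z (hz | ⟨w, hw, rfl⟩)
      · exact ⟨Or.inl hz, fun e => hx'.2 (e ▸ hz)⟩
      · refine ⟨smul_mem_of_fix hh (Or.inl hw), fun e => hx.2 ?_⟩
        have : w = x := MulAction.injective h e
        exact this ▸ hw
    have d1 := Set.ncard_le_ncard hsub
    have d2 := Set.ncard_sdiff_singleton_add_one (s := Γ ∪ g • Γ) (Or.inr hx'.1)
    have d4 := Set.ncard_union_add_ncard_inter Γ (h • Γ)
    rw [ncard_smul] at d4
    have := @hmin h ⟨e, (Set.ncard_pos (Set.toFinite _)).1 (by omega)⟩ (by simp only; omega)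
    simp only at this
    omega
  obtain ⟨x, hx⟩ : D.Nonempty := by
    by_contra hc
    rw [Set.not_nonempty_iff_eq_empty, Set.sdiff_eq_empty] at hc
    exact hg (Set.eq_of_subset_of_ncard_le hc (ncard_smul g Γ).ge)
  have c5 := (Set.ncard_pos (Set.toFinite _)).2 ⟨x, hx⟩
  have into : ∀ y ∈ Γ, ∃ h : G, (∀ z ∉ Γ ∪ g • Γ, h • z = z) ∧ h • x = y ∧ h • D ⊆ Γ := by
    intro y hy
    obtain ⟨h, hh, e⟩ := hU x (Or.inr hx.1) y (Or.inl hy)
    refine ⟨h, hh, e, ?_⟩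
    rintro _ ⟨w, hw, rfl⟩
    by_contra hc
    have := blk h hh w hw ⟨(smul_mem_of_fix hh (Or.inr hw.1)).resolve_left hc, hc⟩
    rw [← this, ← e, Set.smul_mem_smul_set_iff] at hy
    exact hx.2 hy
  have c6 : 2 * D.ncard ≤ Γ.ncard := by
    obtain ⟨h, hh, -, hs⟩ := into γ hγ
    obtain ⟨y, hy, hy'⟩ : ∃ y ∈ Γ, y ∉ h • D := by
      by_contra hc
      push Not at hc
      have := Set.ncard_le_ncard hc
      rw [ncard_smul] at this
      omega
    obtain ⟨h', hh', e', hs'⟩ := into y hy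
    have hdis : Disjoint (h • D) (h' • D) := by
      rw [Set.disjoint_left]
      rintro _ ⟨w, hw, rfl⟩ ⟨w', hw', e⟩
      have hf : ∀ z ∉ Γ ∪ g • Γ, (h⁻¹ * h') • z = z := fun z hz => by
        rw [mul_smul, hh' z hz, fix_inv hh z hz]
      have e1 := blk (h⁻¹ * h') hf w' hw' (by
        rw [mul_smul, show h' • w' = h • w from e, inv_smul_smul]; exact hw)
      refine hy' (Set.mem_smul_set_iff_inv_smul_mem.2 ?_)
      have e2 : (h⁻¹ * h') • x ∉ Γ := by
        rw [← e1, Set.smul_mem_smul_set_iff]; exact hx.2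
      rw [← e', ← mul_smul]
      exact ⟨(smul_mem_of_fix hf (Or.inr hx.1)).resolve_left e2, e2⟩
    have d1 := Set.ncard_le_ncard (Set.union_subset hs hs')
    rw [Set.ncard_union_eq hdis, ncard_smul, ncard_smul] at d1
    omega
  have hDΓ : ∀ x ∈ D, x ∉ Γ := fun x hx => hx.2
  have hcard : Nat.card (complAct G Γ) = Γᶜ.ncard := rfl
  have hdt : IsMultiplyPretransitive (stabilizer G Γ) (complAct G Γ) D.ncard := by
    by_cases hd : D.ncard = 1
    · exact isMultiplyPretransitive_of_le (n := 2) (by omega) (by omega)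
    have hJD : IsJ (stabilizer G Γ) ((fun x : complAct G Γ => (x : Ω)) ⁻¹' D) := by
      intro a ha b hb
      obtain ⟨h, hh, e⟩ := hU a (Or.inr ha.1) b (Or.inr hb.1)
      refine ⟨⟨h, blk h hh a ha (e ▸ hb)⟩, fun z hz => Subtype.ext (hh z ?_), Subtype.ext e⟩
      rintro (hc | hc)
      · exact z.2 hc
      · exact hz ⟨hc, z.2⟩
    have := ih _ (by omega) hcard (isPreprimitive_of_is_two_pretransitive h2c) _ hJD
      (by rw [ncard_pre hDΓ]; omega) (by rw [ncard_pre hDΓ]; omega)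
    exact isMultiplyPretransitive_of_le (n := Γᶜ.ncard - 2) (by omega) (by omega)
  have hH : ∀ A : Set Ω, A ⊆ Γᶜ → A.ncard + D.ncard ≤ Γᶜ.ncard → IsJ G Aᶜ := by
    intro A hA hAc
    have key : ∀ β ∉ A, ∃ k : G, (∀ z ∈ A, k • z = z) ∧ k • β = γ := by
      intro β hβ
      by_cases hb : β ∈ Γ
      · obtain ⟨k, hk, e⟩ := hJ β hb γ hγ
        exact ⟨k, fun z hz => hk z (hA hz), e⟩
      have d1 := Set.ncard_sdiff_add_ncard_of_subset hA
      obtain ⟨D', s1, s2, s3⟩ := Set.exists_subsuperset_card_eq (s := {β}) (t := Γᶜ \ A)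
        (n := D.ncard) (Set.singleton_subset_iff.2 ⟨hb, hβ⟩) (by rw [Set.ncard_singleton]; omega)
        (by omega)
      obtain ⟨⟨k, hk⟩, e⟩ := exists_smul_set hdt (ncard_pre hDΓ)
        ((ncard_pre fun x hx => (s2 hx).1).trans s3)
      have hk' : k • Γ = Γ := hk
      have mem : ∀ z ∉ Γ, z ∈ k • (Γ ∪ g • Γ) ↔ z ∈ D' := by
        intro z hz
        have e1 := Set.ext_iff.1 e ⟨z, hz⟩
        rw [Set.mem_smul_set_iff_inv_smul_mem] at e1 ⊢
        have e2 : k⁻¹ • z ∉ Γ := by rwa [← Set.mem_smul_set_iff_inv_smul_mem, hk']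
        refine Iff.trans ⟨fun h => ⟨h.resolve_left e2, e2⟩, fun h => Or.inr h.1⟩ e1
      obtain ⟨k', hk1, hk2⟩ := hU.smul k β ((mem β hb).2 (s1 rfl)) γ (by
        rw [Set.smul_set_union, hk']; exact Or.inl hγ)
      exact ⟨k', fun z hz => hk1 z fun hc => (s2 ((mem z (hA hz)).1 hc)).2 hz, hk2⟩
    intro a ha b hb
    obtain ⟨k, hk, e⟩ := key a ha
    obtain ⟨k', hk', e'⟩ := key b hb
    refine ⟨k'⁻¹ * k, fun z hz => ?_, by rw [mul_smul, e, inv_smul_eq_iff, e']⟩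
    rw [mul_smul, hk z (not_not.1 hz), inv_smul_eq_iff, hk' z (not_not.1 hz)]
  have hT : ∀ j, j + D.ncard ≤ Γᶜ.ncard + 1 → IsMultiplyPretransitive G Ω j := by
    intro j
    induction j with
    | zero => exact fun _ => is_zero_pretransitive
    | succ j ihj =>
      intro hj
      obtain ⟨A, hA, hAc⟩ := Set.exists_subset_card_eq (s := Γᶜ) (n := j) (by omega)
      exact IsJ.succ_trans (ihj (by omega)) hAc (hH A hA (by omega))
  obtain ⟨j, hj, e⟩ := hJ γ hγ γ' hγ'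
  have hs : (toPermHom G Ω j).support.card ≤ Γ.ncard := by
    rw [← Set.ncard_coe_finset]
    exact Set.ncard_le_ncard fun z hz => by_contra fun hc => mem_support.1 hz (hj z hc)
  rw [← hn]
  exact multTrans_of_alt_le (S0711.result _ (k := Γᶜ.ncard + 1 - D.ncard) (by omega)
    (by rw [← Nat.card_eq_fintype_card]; omega) (multTrans_range (hT _ (by omega)))
    (toPermHom G Ω j) ⟨j, rfl⟩
    (fun e' => hγγ ((congrFun (congrArg DFunLike.coe e') γ).symm.trans e)) (by omega)).2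

/-- **Marggraf**: a primitive group with a Jordan set of less than half the points -/
theorem IsJ.marggraf [Finite Ω] (hG : IsPreprimitive G Ω) {Γ : Set Ω} (hJ : IsJ G Γ)
    (h1 : 1 < Γ.ncard) (h2 : 2 * Γ.ncard < Nat.card Ω) :
    IsMultiplyPretransitive G Ω (Nat.card Ω - 2) :=
  marggraf_aux _ rfl hG Γ hJ h1 h2

theorem exists_prim_quot [Finite G] [IsPretransitive G Ω] [Nontrivial Ω] :
    ∃ (M : Subgroup G) (π : Ω → G ⧸ M), IsPreprimitive G (G ⧸ M) ∧ Nontrivial (G ⧸ M) ∧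
      ∀ (g : G) x, π (g • x) = g • π x := by
  obtain ⟨a, b, hab⟩ := exists_pair_ne Ω
  have hne : stabilizer G a ≠ ⊤ := fun e => by
    obtain ⟨g, hg⟩ := exists_smul_eq G a b
    exact hab ((mem_stabilizer_iff.1 (e ▸ Subgroup.mem_top g)).symm.trans hg)
  obtain ⟨M, hM, hle⟩ := (eq_top_or_exists_le_coatom (stabilizer G a)).resolve_left hne
  have hnt : Nontrivial (G ⧸ M) := QuotientGroup.nontrivial_iff.2 hM.1
  choose c hc using fun x => exists_smul_eq G a x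
  refine ⟨M, fun x => c x, (isCoatom_stabilizer_iff_preprimitive G ((1 : G) : G ⧸ M)).1
    (by rwa [stabilizer_quotient]), hnt, fun g x => ?_⟩
  refine QuotientGroup.eq.2 (hle (mem_stabilizer_iff.2 ?_))
  change ((c (g • x))⁻¹ * (g * c x)) • a = a
  rw [mul_smul, mul_smul, hc, inv_smul_eq_iff, hc]

section Quasi

variable {S : Type*} [MulAction G S] {π : Ω → S}

theorem ncard_preimage_mul [Finite Ω] [Finite S] [IsPretransitive G S]
    (hπ : ∀ (g : G) x, π (g • x) = g • π x) (s : S) (T : Set S) :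
    (π ⁻¹' T).ncard = (π ⁻¹' {s}).ncard * T.ncard := by
  induction T, Set.toFinite T using Set.Finite.induction_on with
  | empty => simp
  | @insert t T ht _ ih =>
    obtain ⟨g, rfl⟩ := exists_smul_eq G s t
    have e : π ⁻¹' {g • s} = g • π ⁻¹' {s} := by
      ext x
      simp [Set.mem_smul_set_iff_inv_smul_mem, hπ, inv_smul_eq_iff]
    rw [Set.ncard_insert_of_notMem ht, Set.insert_eq, Set.preimage_union, Set.ncard_union_eq
      ((Set.disjoint_singleton_left.2 ht).preimage π), ih, e, ncard_smul]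
    ring

theorem quasi_faithful [IsPretransitive G Ω] [IsPretransitive G S] [Nonempty Ω] [Nontrivial S]
    (hqp : ∀ N : Subgroup G, N.Normal → N ≠ ⊥ → IsPretransitive N Ω)
    (hπ : ∀ (g : G) x, π (g • x) = g • π x) {g : G} (hg : ∀ s : S, g • s = s) : g = 1 := by
  by_contra h1
  have ht := hqp (toPermHom G S).ker inferInstance fun e => h1 (by
    rw [← Subgroup.mem_bot, ← e]
    exact Equiv.ext hg)
  obtain ⟨x⟩ := ‹Nonempty Ω›
  obtain ⟨t, ht'⟩ := exists_ne (π x)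
  obtain ⟨k, rfl⟩ := exists_smul_eq G (π x) t
  obtain ⟨⟨n, hn⟩, e⟩ := ht.exists_smul_eq x (k • x)
  have e1 : n • π x = π x := congrFun (congrArg DFunLike.coe hn) (π x)
  exact ht' (by rw [← hπ, ← e, ← e1, ← hπ]; rfl)

theorem quasi_sat [IsPretransitive G S] (hf : ∀ g : G, (∀ s : S, g • s = s) → g = 1)
    (hπ : ∀ (g : G) x, π (g • x) = g • π x) {Γ : Set Ω} (hJ : IsJ G Γ) {a b : Ω} (ha : a ∈ Γ)
    (hb : b ∈ Γ) (hab : a ≠ b) :
    (∃ x ∈ Γ, ∃ y ∈ Γ, π x ≠ π y) ∧ ∀ x ∈ Γ, ∀ y, π y = π x → y ∈ Γ := by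
  have h1 : ∃ x ∈ Γ, ∃ y ∈ Γ, π x ≠ π y := by
    by_contra hc
    push Not at hc
    obtain ⟨j, hj, e⟩ := hJ a ha b hb
    rw [hf j fun s => ?_, one_smul] at e
    · exact hab e
    obtain ⟨k, rfl⟩ := exists_smul_eq G (π a) s
    rw [← hπ k, ← hπ]
    by_cases h : k • a ∈ Γ
    · exact hc _ (smul_mem_of_fix hj h) _ h
    · rw [hj _ h]
  refine ⟨h1, fun x hx y e => by_contra fun hy => ?_⟩
  have key : ∀ z ∈ Γ, π z = π x := fun z hz => by
    obtain ⟨j, hj, rfl⟩ := hJ x hx z hz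
    rw [hπ, ← e, ← hπ, hj y hy]
  obtain ⟨u, hu, v, hv, huv⟩ := h1
  exact huv ((key u hu).trans (key v hv).symm)

theorem prim_of_inj [IsPretransitive G S] [Nonempty Ω] (hS : IsPreprimitive G S)
    (hπ : ∀ (g : G) x, π (g • x) = g • π x) (hi : Function.Injective π) : IsPreprimitive G Ω := by
  obtain ⟨x⟩ := ‹Nonempty Ω›
  refine (isPreprimitive_congr (φ := id) (f := ⟨π, hπ⟩) Function.surjective_id
    ⟨hi, fun s => ?_⟩).2 hS
  obtain ⟨k, rfl⟩ := exists_smul_eq G (π x) s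
  exact ⟨k • x, hπ k x⟩

theorem inj_of_alt [Fintype S] [DecidableEq S] (h5 : 5 ≤ Nat.card S)
    (hqp : ∀ N : Subgroup G, N.Normal → N ≠ ⊥ → IsPretransitive N Ω)
    (hf : ∀ g : G, (∀ s : S, g • s = s) → g = 1) (hπ : ∀ (g : G) x, π (g • x) = g • π x)
    (hA : alternatingGroup S ≤ (toPermHom G S).range) {t : G} (ht : IsThreeCycle (toPermHom G S t))
    (hfix : ∀ x, t • π x = π x → t • x = x) : Function.Injective π := by
  intro x y hxy
  have hN := hqp ((alternatingGroup S).comap (toPermHom G S)) inferInstance fun e => by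
    have : t ∈ (⊥ : Subgroup G) := e ▸ ht.mem_alternatingGroup
    rw [Subgroup.mem_bot.1 this, map_one] at ht
    exact ht.ne_one rfl
  obtain ⟨⟨n, hn⟩, e⟩ := hN.exists_smul_eq x y
  have e' : n • x = y := e
  have e1 : n • π x = π x := by rw [← hπ, e', hxy]
  have hp : ∀ s, toPermHom G S n s ≠ π x ↔ s ≠ π x := fun s => by
    rw [← e1, not_iff_not]
    conv_rhs => rw [e1]
    exact (MulAction.injective n).eq_iff
  have hp' : ∀ s, toPermHom G S n s ≠ s → s ≠ π x := fun s hs e => hs (e ▸ e1)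
  have key : ∀ ρ ∈ alternatingGroup {s // s ≠ π x},
      ∃ p : G, toPermHom G S p = ofSubtype ρ ∧ p • x = x := by
    intro ρ hρ
    rw [← closure_three_cycles_eq_alternating] at hρ
    induction hρ using Subgroup.closure_induction with
    | mem ρ hρ =>
      have h3 : IsThreeCycle (ofSubtype ρ) := cycleType_ofSubtype.trans hρ
      obtain ⟨⟨_, hu⟩, e⟩ := isConj_iff.1 (alternatingGroup.isThreeCycle_isConj h5
        (σ := ⟨_, ht.mem_alternatingGroup⟩) (τ := ⟨_, h3.mem_alternatingGroup⟩) ht h3)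
      obtain ⟨u, rfl⟩ := hA hu
      have e2 : toPermHom G S (u * t * u⁻¹) = ofSubtype ρ := by
        rw [map_mul, map_mul, map_inv]; exact congrArg Subtype.val e
      refine ⟨_, e2, ?_⟩
      have e3 : (u * t * u⁻¹) • π x = π x :=
        (congrFun (congrArg DFunLike.coe e2) (π x)).trans (ofSubtype_apply_of_not_mem ρ (by simp))
      rw [mul_smul, mul_smul, hfix, smul_inv_smul]
      rw [hπ, ← (MulAction.injective u).eq_iff]
      simpa [mul_smul] using e3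
    | one => exact ⟨1, by rw [map_one, map_one], one_smul _ _⟩
    | mul _ _ _ _ h1 h2 =>
      obtain ⟨p, hp1, hp2⟩ := h1
      obtain ⟨q, hq1, hq2⟩ := h2
      exact ⟨p * q, by rw [map_mul, map_mul, hp1, hq1], by rw [mul_smul, hq2, hp2]⟩
    | inv _ _ h1 =>
      obtain ⟨p, hp1, hp2⟩ := h1
      exact ⟨p⁻¹, by rw [map_inv, map_inv, hp1], inv_smul_eq_iff.2 hp2.symm⟩
  obtain ⟨p, hp1, hp2⟩ := key ((toPermHom G S n).subtypePerm hp)
    (mem_alternatingGroup.2 ((sign_subtypePerm _ hp hp').trans (mem_alternatingGroup.1 hn)))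
  rw [ofSubtype_subtypePerm hp hp'] at hp1
  have := hf (p⁻¹ * n) fun s => by
    rw [mul_smul, inv_smul_eq_iff]
    exact (congrFun (congrArg DFunLike.coe hp1) s).symm
  rw [← e', ← inv_mul_eq_one.1 this, hp2]

end Quasi

theorem quasi_trans (hqp : ∀ N : Subgroup G, N.Normal → N ≠ ⊥ → IsPretransitive N Ω)
    {Γ : Set Ω} (hJ : IsJ G Γ) {a b : Ω} (ha : a ∈ Γ) (hb : b ∈ Γ) (hab : a ≠ b) :
    IsPretransitive G Ω := by
  obtain ⟨j, -, e⟩ := hJ a ha b hb
  have := hqp ⊤ inferInstance fun e' => hab (by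
    rw [← e, Subgroup.mem_bot.1 (e' ▸ Subgroup.mem_top j : j ∈ (⊥ : Subgroup G)), one_smul])
  exact ⟨fun x y => by
    obtain ⟨g, hg⟩ := this.exists_smul_eq x y
    exact ⟨g.1, hg⟩⟩

theorem prim_of_quasi_of_prim [Finite G] [Finite Ω]
    (hqp : ∀ N : Subgroup G, N.Normal → N ≠ ⊥ → IsPretransitive N Ω)
    {Γ : Set Ω} (h1 : 1 < Γ.ncard)
    (hJp : IsPreprimitive (fixingSubgroup G Γᶜ) (SubMulAction.ofFixingSubgroup G Γᶜ)) :
    IsPreprimitive G Ω := by
  have hJ : IsJ G Γ := isJ_iff.2 hJp.toIsPretransitive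
  obtain ⟨a, b, ha, hb, hab⟩ := (Set.one_lt_ncard_iff (Set.toFinite Γ)).1 h1
  have := quasi_trans hqp hJ ha hb hab
  have : Nontrivial Ω := ⟨⟨a, b, hab⟩⟩
  obtain ⟨M, π, hM, hnt, hπ⟩ := exists_prim_quot (G := G) (Ω := Ω)
  obtain ⟨⟨x, hx, y, hy, hxy⟩, hsat⟩ := quasi_sat (fun g => quasi_faithful hqp hπ) hπ hJ ha hb hab
  refine prim_of_inj hM hπ fun u v huv => ?_
  let f : SubMulAction.ofFixingSubgroup G Γᶜ →ₑ[(fixingSubgroup G Γᶜ).subtype] G ⧸ M :=
    ⟨fun z => π z, fun g z => hπ g z⟩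
  rcases ((IsBlock.singleton (G := G) (a := π x)).preimage f).subsingleton_or_eq_univ with h | h
  · obtain ⟨g, hg⟩ := exists_smul_eq G u x
    have e : π (g • v) = π x := by rw [hπ, ← huv, ← hπ, hg]
    have := h (x := ⟨x, not_not.2 hx⟩) rfl (y := ⟨g • v, not_not.2 (hsat x hx _ e)⟩) e
    exact MulAction.injective g (hg.trans (congrArg Subtype.val this))
  · have : (⟨y, not_not.2 hy⟩ : SubMulAction.ofFixingSubgroup G Γᶜ) ∈ f ⁻¹' {π x} :=
      h ▸ Set.mem_univ _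
    exact (hxy (Eq.symm this)).elim

theorem prim_of_quasi_of_small [Finite G] [Finite Ω]
    (hqp : ∀ N : Subgroup G, N.Normal → N ≠ ⊥ → IsPretransitive N Ω)
    {Γ : Set Ω} (hJ : IsJ G Γ) (h1 : 1 < Γ.ncard) (h2 : 2 * Γ.ncard < Nat.card Ω) :
    IsPreprimitive G Ω := by
  classical
  obtain ⟨a, b, ha, hb, hab⟩ := (Set.one_lt_ncard_iff (Set.toFinite Γ)).1 h1
  have := quasi_trans hqp hJ ha hb hab
  have : Nontrivial Ω := ⟨⟨a, b, hab⟩⟩
  obtain ⟨M, π, hM, hnt, hπ⟩ := exists_prim_quot (G := G) (Ω := Ω)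
  have hf := fun g => quasi_faithful hqp hπ (g := g)
  obtain ⟨⟨x, hx, y, hy, hxy⟩, hsat⟩ := quasi_sat hf hπ hJ ha hb hab
  have := Fintype.ofFinite (G ⧸ M)
  have hpre : π ⁻¹' (π '' Γ) = Γ := by
    ext z
    exact ⟨fun ⟨w, hw, e⟩ => hsat w hw z e.symm, fun hz => ⟨z, hz, rfl⟩⟩
  have hfixS : ∀ j : G, (∀ z ∉ Γ, j • z = z) → ∀ s ∉ π '' Γ, j • s = s := by
    intro j hj s hs
    obtain ⟨k, rfl⟩ := exists_smul_eq G (π a) s
    rw [← hπ k] at hs ⊢
    rw [← hπ, hj _ fun h => hs ⟨_, h, rfl⟩]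
  have hJS : IsJ G (π '' Γ) := by
    rintro _ ⟨u, hu, rfl⟩ _ ⟨v, hv, rfl⟩
    obtain ⟨j, hj, e⟩ := hJ u hu v hv
    exact ⟨j, hfixS j hj, by rw [← hπ, e]⟩
  have c1 : 1 < (π '' Γ).ncard :=
    (Set.one_lt_ncard_iff (Set.toFinite _)).2 ⟨_, _, ⟨x, hx, rfl⟩, ⟨y, hy, rfl⟩, hxy⟩
  have c2 : 2 * (π '' Γ).ncard < Nat.card (G ⧸ M) := by
    have e1 := ncard_preimage_mul hπ (π a) (π '' Γ)
    have e2 := ncard_preimage_mul hπ (π a) Set.univ
    rw [hpre] at e1
    rw [Set.preimage_univ, Set.ncard_univ, Set.ncard_univ] at e2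
    rw [e1, e2, mul_left_comm] at h2
    exact lt_of_mul_lt_mul_left h2 (Nat.zero_le _)
  have hT := hJS.marggraf hM c1 c2
  have c3 := Set.ncard_add_ncard_compl (π '' Γ)
  obtain ⟨Y, hY, hYc⟩ := Set.exists_subset_card_eq (s := (π '' Γ)ᶜ) (n := (π '' Γ).ncard - 1)
    (by omega)
  obtain ⟨g, hg⟩ := exists_smul_set (isMultiplyPretransitive_of_le (G := G) (α := G ⧸ M)
    (m := (π '' Γ).ncard) (n := Nat.card (G ⧸ M) - 2) (by omega) (by omega)) (t := insert (π x) Y)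
    rfl (by rw [Set.ncard_insert_of_notMem fun h => hY h ⟨x, hx, rfl⟩]; omega)
  have hgΓ : ∀ z, z ∈ g • Γ ↔ π z ∈ insert (π x) Y := fun z => by
    rw [← hg, Set.mem_smul_set_iff_inv_smul_mem, Set.mem_smul_set_iff_inv_smul_mem, ← hπ]
    exact (Set.ext_iff.1 hpre _).symm
  obtain ⟨s, hs⟩ : Y.Nonempty := (Set.ncard_pos (Set.toFinite _)).1 (by omega)
  obtain ⟨k, rfl⟩ := exists_smul_eq G (π x) s
  obtain ⟨j, hj, e⟩ := hJ x hx y hy
  obtain ⟨j', hj', e'⟩ := hJ.smul g x ((hgΓ x).2 (Or.inl rfl)) (k • x)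
    ((hgΓ _).2 (Or.inr (by rwa [hπ])))
  have m1 : j • π x ≠ π x := by rw [← hπ, e]; exact hxy.symm
  have m2 : j' • π x ≠ π x := by
    rw [← hπ, e', hπ]
    exact fun h => hY hs (h.symm ▸ ⟨x, hx, rfl⟩)
  have hC : ∀ z, j • z ≠ z → j' • z ≠ z → z ∈ π ⁻¹' {π x} := fun z h h' =>
    ((hgΓ z).1 (by_contra fun c => h' (hj' z c))).resolve_right
      fun c => hY c ⟨z, by_contra fun c' => h (hj z c'), rfl⟩
  have hCS : ∀ s : G ⧸ M, j • s ≠ s → j' • s ≠ s → s = π x := by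
    intro s h h'
    obtain ⟨l, rfl⟩ := exists_smul_eq G (π a) s
    rw [← hπ l] at h h' ⊢
    exact hC _ (fun c => h (by rw [← hπ, c])) fun c => h' (by rw [← hπ, c])
  have hsupp : (toPermHom G (G ⧸ M) (j * j' * j⁻¹ * j'⁻¹)).support ⊆
      {π x, j • π x, j' • π x} := by
    intro s hs
    by_contra hc
    simp only [Finset.mem_insert, Finset.mem_singleton, not_or] at hc
    exact mem_support.1 hs (comm_smul_eq (C := {π x}) hCS hc.1
      (fun e => hc.2.1 (inv_smul_eq_iff.1 e)) fun e => hc.2.2 (inv_smul_eq_iff.1 e))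
  have hne : toPermHom G (G ⧸ M) (j * j' * j⁻¹ * j'⁻¹) ≠ 1 := fun e => m2 (by
    have e1 : (j * j' * j⁻¹ * j'⁻¹) • j' • π x = j' • π x :=
      congrFun (congrArg DFunLike.coe e) (j' • π x)
    have e2 : j' • j⁻¹ • π x = j⁻¹ • π x := by
      by_contra e'
      have : j⁻¹ • π x ≠ π x := fun e'' => m1 (inv_smul_eq_iff.1 e'').symm
      exact this (hCS _ (by rw [smul_inv_smul]; exact this.symm) e')
    simp only [mul_smul, inv_smul_smul, e2, smul_inv_smul] at e1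
    exact e1.symm)
  have h3 : (toPermHom G (G ⧸ M) (j * j' * j⁻¹ * j'⁻¹)).support.card = 3 := by
    have d1 := (Finset.card_le_card hsupp).trans Finset.card_le_three
    have d2 := two_le_card_support_of_ne_one hne
    by_contra d3
    have := (card_support_eq_two.1 (by omega :
      (toPermHom G (G ⧸ M) (j * j' * j⁻¹ * j'⁻¹)).support.card = 2)).sign_eq
    simp only [map_mul, map_inv] at this
    rw [mul_right_comm (sign _), mul_assoc, mul_inv_cancel, one_mul, mul_inv_cancel] at this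
    exact absurd this (by decide)
  have hsupp' := Finset.eq_of_subset_of_card_le hsupp (h3 ▸ Finset.card_le_three)
  refine prim_of_inj hM hπ (inj_of_alt (by omega) hqp hf hπ
    (IsMultiplyPretransitive.alternatingGroup_le _ _ (multTrans_range hT))
    (card_support_eq_three_iff.1 h3) fun z hz => ?_)
  have hc : π z ∉ ({π x, j • π x, j' • π x} : Finset _) := hsupp' ▸ notMem_support.2 hz
  simp only [Finset.mem_insert, Finset.mem_singleton, not_or] at hc
  refine comm_smul_eq hC hc.1 (fun e => hc.2.1 (inv_smul_eq_iff.1 ?_))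
    fun e => hc.2.2 (inv_smul_eq_iff.1 ?_)
  all_goals rw [← hπ]; exact e

end Cfsg.Agent.H78
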