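import Mathlib

set_option autoImplicit false

/-! Basic facts on finite faithful primitive actions. -/

namespace Cfsg.Agent.H78

open MulAction

variable {G Ω : Type*} [Group G] [MulAction G Ω]

/-- A normal subgroup inside a point stabiliser of a faithful transitive action is trivial. -/
theorem eq_bot_of_normal_le_stab [FaithfulSMul G Ω] [IsPretransitive G Ω] {X : Subgroup G}
    (hX : X.Normal) {a : Ω} (hXa : X ≤ stabilizer G a) : X = ⊥ := by
  rw [eq_bot_iff]
  intro x hx
  rw [Subgroup.mem_bot]
  apply (FaithfulSMul.eq_of_smul_eq_smul (α := Ω))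
  intro c
  obtain ⟨g, rfl⟩ := exists_smul_eq G a c
  have h1 : g⁻¹ * x * g⁻¹⁻¹ ∈ X := hX.conj_mem x hx g⁻¹
  have h2 := hXa h1
  rw [mem_stabilizer_iff, inv_inv, mul_smul, mul_smul, inv_smul_eq_iff] at h2
  rw [h2, one_smul]

/-- In a primitive action, a subgroup containing a point stabiliser and an element moving the
point is everything. -/
theorem eq_top_of_stab_le (hprim : IsPreprimitive G Ω) {a : Ω} {Y : Subgroup G}
    (hY : stabilizer G a ≤ Y) {g : G} (hg : g ∈ Y) (hga : g • a ≠ a) : Y = ⊤ := by
  have : Nontrivial Ω := ⟨⟨_, _, hga⟩⟩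
  have hc := IsPreprimitive.isCoatom_stabilizer_of_isPreprimitive G a
  refine hc.2 Y (lt_of_le_of_ne hY ?_)
  intro h
  exact hga (by rw [← h] at hg; exact hg)

/-- A subgroup of `G_a` normalised by `G_a` and by an element moving `a` is trivial. -/
theorem eq_bot_of_normalized [FaithfulSMul G Ω] (hprim : IsPreprimitive G Ω) {a : Ω}
    {X : Subgroup G} (hXa : X ≤ stabilizer G a)
    (hN : stabilizer G a ≤ Subgroup.normalizer (X : Set G)) {g : G}
    (hg : g ∈ Subgroup.normalizer (X : Set G)) (hga : g • a ≠ a) : X = ⊥ := by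
  have h := eq_top_of_stab_le hprim hN hg hga
  have := hprim.toIsPretransitive
  exact eq_bot_of_normal_le_stab (Subgroup.normalizer_eq_top_iff.mp h) hXa

theorem card_stab_smul (g : G) (a : Ω) :
    Nat.card (stabilizer G (g • a)) = Nat.card (stabilizer G a) := by
  rw [stabilizer_smul_eq_stabilizer_map_conj]
  exact Subgroup.card_map_of_injective (MulAut.conj g).injective

theorem card_stab_eq [IsPretransitive G Ω] (a b : Ω) :
    Nat.card (stabilizer G a) = Nat.card (stabilizer G b) := by
  obtain ⟨g, rfl⟩ := exists_smul_eq G a b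
  exact (card_stab_smul g a).symm

theorem stab_eq_of_le [Finite G] [IsPretransitive G Ω] {a b : Ω}
    (h : stabilizer G a ≤ stabilizer G b) : stabilizer G a = stabilizer G b :=
  Subgroup.eq_of_le_of_card_ge h (card_stab_eq b a).le

/-- If `G_a` fixes a second point then it is trivial. -/
theorem stab_eq_bot_of_le [Finite G] [FaithfulSMul G Ω] (hprim : IsPreprimitive G Ω) {a b : Ω}
    (hab : a ≠ b) (h : stabilizer G a ≤ stabilizer G b) : stabilizer G a = ⊥ := by
  have := hprim.toIsPretransitive
  have he := stab_eq_of_le h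
  obtain ⟨g, rfl⟩ := exists_smul_eq G a b
  refine eq_bot_of_normalized hprim le_rfl Subgroup.le_normalizer (g := g) ?_ (Ne.symm hab)
  rw [Subgroup.mem_normalizer_iff]
  intro x
  constructor
  · intro hx
    rw [he]
    rw [mem_stabilizer_iff] at hx ⊢
    rw [mul_smul, mul_smul, inv_smul_smul, hx]
  · intro hx
    rw [he, mem_stabilizer_iff, mul_smul, mul_smul, inv_smul_smul, smul_left_cancel_iff] at hx
    exact hx

/-- The orbit of `b` under `G_a` has length the index of `G_{ab}` in `G_a`. -/
theorem card_suborbit (a b : Ω) :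
    Nat.card (orbit (stabilizer G a) b) = (stabilizer G b).relIndex (stabilizer G a) := by
  rw [Nat.card_congr (orbitEquivQuotientStabilizer (stabilizer G a) b)]
  rfl

theorem relIndex_stab_comm [Finite G] [IsPretransitive G Ω] (a b : Ω) :
    (stabilizer G b).relIndex (stabilizer G a) = (stabilizer G a).relIndex (stabilizer G b) := by
  have h1 : Nat.card ((stabilizer G b).subgroupOf (stabilizer G a)) *
      (stabilizer G b).relIndex (stabilizer G a) = Nat.card (stabilizer G a) :=
    Subgroup.card_mul_index _
  have h2 : Nat.card ((stabilizer G a).subgroupOf (stabilizer G b)) *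
      (stabilizer G a).relIndex (stabilizer G b) = Nat.card (stabilizer G b) :=
    Subgroup.card_mul_index _
  have h3 : Nat.card ((stabilizer G b).subgroupOf (stabilizer G a)) =
      Nat.card ((stabilizer G a).subgroupOf (stabilizer G b)) := by
    rw [← Subgroup.inf_subgroupOf_right (stabilizer G b), ← Subgroup.inf_subgroupOf_right
      (stabilizer G a) (stabilizer G b),
      Nat.card_congr (Subgroup.subgroupOfEquivOfLe inf_le_right).toEquiv,
      Nat.card_congr (Subgroup.subgroupOfEquivOfLe inf_le_right).toEquiv, inf_comm]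
  rw [h3, card_stab_eq a b, ← h2] at h1
  exact Nat.eq_of_mul_eq_mul_left Nat.card_pos h1

end Cfsg.Agent.H78
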