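import Cfsg.Agent.H13.SzInst

set_option autoImplicit false

/-! The quadratic identity satisfied by `g + g⁻¹` for `g` in a Suzuki group. -/

namespace Cfsg.Agent.H78

open Matrix Cfsg.Lie Cfsg.Agent.H13

variable {F : Type*} [Field F] [Tits F]

theorem sz_quad {g : Matrix (Fin 4) (Fin 4) F} (hg : IsSz g) :
    (g + JM F * gᵀ * JM F) * (g + JM F * gᵀ * JM F) + g.trace • (g + JM F * gᵀ * JM F) +
      θ g.trace • (1 : Matrix (Fin 4) (Fin 4) F) = 0 := by
  have h2 : (2 : F) = 0 := two_eq_zero'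
  have h1 : θ g.trace = (star4 g).trace := by
    rw [hg.2]; simp [Matrix.trace]
  have hc := sp_col_entry hg.1 1 2
  have hr := sp_row_entry hg.1 1 2
  have hu : g + JM F * gᵀ * JM F = Matrix.of fun i j => g i j + g j.rev i.rev := by
    ext i j
    simp only [Matrix.add_apply, Matrix.mul_apply, Fin.sum_univ_four, Matrix.of_apply,
      Matrix.transpose_apply]
    fin_cases i <;> fin_cases j <;> simp [JM, Fin.rev]
  have hb : θ g.trace = (g 0 0 + g 3 3) * (g 1 1 + g 2 2) + (g 0 1 + g 2 3) * (g 1 0 + g 3 2) +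
      (g 0 2 + g 1 3) * (g 2 0 + g 3 1) := by
    rw [h1]
    simp [Matrix.trace, Fin.sum_univ_four, star4, pairOf]
    rw [← hr] at hc
    grind
  rw [hu, hb]
  ext i j
  fin_cases i <;> fin_cases j <;>
    simp [Matrix.mul_apply, Fin.sum_univ_four, Fin.rev, Matrix.trace] <;> grind

theorem sz_pow_four_of_trace {g : Matrix (Fin 4) (Fin 4) F} (hg : IsSz g) (h : g.trace = 0) :
    g ^ 4 = 1 := by
  have h2 : (2 : F) = 0 := two_eq_zero'
  have hq := sz_quad hg
  have hl := sp_left_inv hg.1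
  have hr := sp_right_inv hg.1
  set g' := JM F * gᵀ * JM F with hg'
  rw [h, map_zero, zero_smul, zero_smul, add_zero, add_zero, add_mul, mul_add, mul_add, hl, hr] at hq
  have h3 : (1 : Matrix (Fin 4) (Fin 4) F) + 1 = 0 := by
    rw [← two_smul F, h2, zero_smul]
  have h4 : g * g + g' * g' = 0 := by
    rw [← hq, add_assoc, ← add_assoc 1 1, h3, zero_add]
  have h5 : g * g * (g * g + g' * g') = g ^ 4 + 1 := by
    rw [mul_add, mul_assoc g g (g' * g'), ← mul_assoc g g' g', hr, one_mul, hr]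
    noncomm_ring
  rw [h4, mul_zero] at h5
  rw [← add_zero (g ^ 4), ← h3, ← add_assoc, ← h5, zero_add]

theorem sz_pow_four_of_fixed {g : Matrix (Fin 4) (Fin 4) F} (hg : IsSz g) {v : Fin 4 → F}
    (hv : v ≠ 0) (hgv : g *ᵥ v = v) : g ^ 4 = 1 := by
  have h2 : (2 : F) = 0 := two_eq_zero'
  apply sz_pow_four_of_trace hg
  have hq := sz_quad hg
  have hl := sp_left_inv hg.1
  set g' := JM F * gᵀ * JM F with hg'
  have h1 : g' *ᵥ v = v := by
    nth_rewrite 1 [← hgv]
    rw [Matrix.mulVec_mulVec, hl, Matrix.one_mulVec]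
  have h3 : (g + g') *ᵥ v = 0 := by
    rw [Matrix.add_mulVec, hgv, h1, ← two_smul F, h2, zero_smul]
  have h4 := congrArg (fun A => A *ᵥ v) hq
  simp only [Matrix.add_mulVec _ (_ • _), Matrix.smul_mulVec, ← Matrix.mulVec_mulVec, h3,
    Matrix.mulVec_zero, smul_zero, zero_add, Matrix.one_mulVec, Matrix.zero_mulVec] at h4
  simpa [hv] using h4

end Cfsg.Agent.H78
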